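import Cfsg.Agent.PspSixGraph.Graph
import Cfsg.Agent.PspSixGraph.EightData
import Cfsg.Agent.Sz.Aut
import Cfsg.Agent.PrimeGraph.Ext

/-!
`Sz(8):3` on the sixteen-dimensional module over the field with eight elements, and the extensions.
-/

set_option autoImplicit false
set_option maxRecDepth 100000

namespace CfsgLib.PspSixGraph

open Matrix CfsgLib.Sz

theorem hyp8 : Hyp Q8 1 := ⟨le_rfl, rfl⟩

/-- `Sz(8)`. -/
abbrev G8 := CfsgLib.Sz.G Q8 1

/-- The matrix of an element. -/
def mt (g : G8) : M8 := ((g : GL (Fin 4) Q8) : M8)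

theorem mt_mul (g k : G8) : mt (g * k) = mt g * mt k := rfl

theorem mt_inj {g k : G8} (h : mt g = mt k) : g = k := Subtype.ext (Units.ext h)

theorem mt_pow (g : G8) (n : ℕ) : mt (g ^ n) = mt g ^ n := by
  induction n with
  | zero => rfl
  | succ n ih => rw [pow_succ, mt_mul, ih, pow_succ]

/-- The group of field automorphisms. -/
abbrev Tw : Subgroup (RingAut Q8) := Subgroup.zpowers Q8.frob

/-- `Sz(8):3`. -/
abbrev L8 := G8 ⋊[(fieldHom hyp8).comp Tw.subtype] Tw

theorem orderOf_frob : orderOf Q8.frob = 3 := by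
  haveI : Fact (Nat.Prime 3) := ⟨Nat.prime_three⟩
  refine orderOf_eq_prime (RingEquiv.ext fun x => ?_) fun h => ?_
  · revert x
    show ∀ x : Q8, (fun y : Q8 => y * y) ((fun y : Q8 => y * y) ((fun y : Q8 => y * y) x)) = x
    decide +kernel
  · have := RingEquiv.congr_fun h (Q8.ofNat 2)
    revert this
    show (fun y : Q8 => y * y) (Q8.ofNat 2) = Q8.ofNat 2 → False
    decide +kernel

theorem card_tw : Nat.card Tw = 3 := by rw [Nat.card_zpowers, orderOf_frob]

theorem tw_cases (σ : Tw) : (σ : RingAut Q8) = 1 ∨ (σ : RingAut Q8) = Q8.frob ∨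
    (σ : RingAut Q8) = Q8.frob * Q8.frob := by
  obtain ⟨k, hk⟩ := Subgroup.mem_zpowers_iff.1 σ.2
  rw [← hk, ← zpow_mod_orderOf, orderOf_frob]
  have h1 : 0 ≤ k % 3 := Int.emod_nonneg k (by norm_num)
  have h2 : k % 3 < 3 := Int.emod_lt_of_pos k (by norm_num)
  have : k % 3 = 0 ∨ k % 3 = 1 ∨ k % 3 = 2 := by omega
  rcases this with h | h | h <;> simp only [Nat.cast_ofNat, h]
  · left; exact zpow_zero _
  · right; left; exact zpow_one _
  · right; right; exact zpow_two _

instance instFiniteAutQ8 : Finite (RingAut Q8) := Finite.of_injective (fun σ => (σ : Q8 → Q8)) DFunLike.coe_injective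

theorem finite_L8 : Finite L8 := Finite.of_equiv _ SemidirectProduct.equivProd.symm

instance instFiniteL8 : Finite L8 := finite_L8

theorem card_L8 : Nat.card L8 = 87360 := by
  rw [SemidirectProduct.card, card_tw, card_G hyp8, Q8.card_eq]
  norm_num

/-- The element of order 13. -/
def u13 : G8 := gW hyp8 * gU hyp8 0 (Q8.ofNat 3)

/-- The element of order 5. -/
def u5 : G8 := gW hyp8 * gU hyp8 0 1

/-- The element of order 7. -/
def u7 : G8 := gD hyp8 (Units.mk0 (Q8.ofNat 2) (by decide))

theorem mt13 : mt u13 = el8 szp13 1 := by decide +kernel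

theorem mt5 : mt u5 = el8 szp5 1 := by decide +kernel

theorem mt7 : mt u7 = el8 szp7 1 := by decide +kernel

theorem order_of_cert {l : List M8} {n : ℕ} (hn : n.Prime) (h : szCert l n = true) {u : G8} (hu : mt u = el8 l 1) :
    orderOf u = n := by
  haveI : Fact n.Prime := ⟨hn⟩
  obtain ⟨h1, h2⟩ := szCert_last h
  refine orderOf_eq_prime (mt_inj ?_) fun e => h2 ?_
  · rw [mt_pow, hu, h1]; rfl
  · rw [← hu, e]; rfl

theorem order13 : orderOf u13 = 13 := order_of_cert (by norm_num) szcert13 mt13

theorem order5 : orderOf u5 = 5 := order_of_cert (by norm_num) szcert5 mt5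

theorem order7 : orderOf u7 = 7 := order_of_cert (by norm_num) szcert7 mt7

theorem cent_pow {r : ℕ} (hr : r = 7 ∨ r = 13) {u : G8} (hu : orderOf u = r) {g : G8} (hg : g * u = u * g) :
    g ^ r = 1 := by
  classical
  have hu1 : u ≠ 1 := fun e => by rw [e, orderOf_one] at hu; omega
  have hmem : u ∈ Subgroup.centralizer ({u} : Set G8) := Subgroup.mem_centralizer_singleton_iff.2 rfl
  have hrp : r.Prime := by rcases hr with rfl | rfl <;> norm_num
  rcases trich hyp8 u hu1 with ⟨hp, -⟩ | ⟨-, hk⟩
  · obtain ⟨k, hk⟩ := hp ⟨u, hmem⟩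
    have h := orderOf_dvd_of_pow_eq_one (congrArg Subtype.val hk : u ^ 2 ^ k = 1)
    rw [hu] at h
    have := (Nat.prime_dvd_prime_iff_eq hrp Nat.prime_two).1 (hrp.dvd_of_dvd_pow h)
    omega
  · have hd : r ∣ Nat.card (Subgroup.centralizer ({u} : Set G8)) := hu ▸ Subgroup.orderOf_dvd_natCard _ hmem
    have hcard : Nat.card (Subgroup.centralizer ({u} : Set G8)) = r := by
      simp only [Ks, Set.mem_insert_iff, Set.mem_singleton_iff] at hk
      rcases hk with hk | hk | hk <;> rw [hk] at hd <;> rcases hr with rfl | rfl <;>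
        (first | exact hk | (revert hd; norm_num))
    have h := Subgroup.orderOf_dvd_natCard _ (Subgroup.mem_centralizer_singleton_iff.2 hg)
    rw [hcard] at h
    exact orderOf_dvd_iff_pow_eq_one.1 h

/-- Centralisers of elements of order 7 and 13 in `Sz(8):3`. -/
theorem cent_L {r : ℕ} (hr : r = 7 ∨ r = 13) {u : G8} (hu : orderOf u = r)
    (htr : Q8.frob (mt u).trace ≠ (mt u).trace ∧ Q8.frob (Q8.frob (mt u).trace) ≠ (mt u).trace)
    (y : L8) (hy : y * SemidirectProduct.inl u = SemidirectProduct.inl u * y) : y ^ r = 1 := by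
  have hl := congrArg SemidirectProduct.left hy
  simp only [SemidirectProduct.mul_left, SemidirectProduct.left_inl, SemidirectProduct.right_inl, map_one,
    MulAut.one_apply] at hl
  have htrace : (y.right : RingAut Q8) (mt u).trace = (mt u).trace := by
    have h := congrArg mt hl
    rw [mt_mul, mt_mul] at h
    have hs : (mt (((fieldHom hyp8).comp Tw.subtype) y.right u)).trace = (y.right : RingAut Q8) (mt u).trace :=
      (AddMonoidHom.map_trace ((y.right : RingAut Q8) : Q8 →+* Q8).toAddMonoidHom (mt u)).symm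
    rw [← hs]
    set B := mt (((fieldHom hyp8).comp Tw.subtype) y.right u)
    have hi : mt y.left⁻¹ * mt y.left = 1 := by rw [← mt_mul, inv_mul_cancel]; rfl
    calc B.trace = (mt y.left⁻¹ * (mt y.left * B)).trace := by rw [← Matrix.mul_assoc, hi, Matrix.one_mul]
      _ = (mt y.left⁻¹ * mt u * mt y.left).trace := by rw [h, Matrix.mul_assoc]
      _ = (mt u).trace := by
        rw [Matrix.trace_mul_cycle, ← mt_mul, mul_inv_cancel, show mt 1 = 1 from rfl, Matrix.one_mul]
  have hright : y.right = 1 := by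
    rcases tw_cases y.right with h | h | h
    · exact Subtype.ext h
    · rw [h] at htrace; exact absurd htrace htr.1
    · rw [h] at htrace; exact absurd htrace htr.2
  have e : y = SemidirectProduct.inl y.left := by
    refine SemidirectProduct.ext rfl ?_
    rw [hright]; rfl
  rw [hright, map_one, MulAut.one_apply] at hl
  rw [e, ← map_pow, cent_pow hr hu hl, map_one]

theorem dvd7 (x : L8) (n : ℕ) (hx : orderOf x = 7 * n) : 7 * n ∣ 7 := by
  haveI : Fact (Nat.Prime 7) := ⟨by norm_num⟩
  refine dvd_of_centralizer (by rw [card_L8]; norm_num)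
    (show orderOf (SemidirectProduct.inl u7 : L8) = 7 by
      rw [orderOf_injective _ SemidirectProduct.inl_injective, order7])
    (cent_L (Or.inl rfl) order7 ?_) hx
  rw [mt7]
  show (fun y : Q8 => y * y) (el8 szp7 1).trace ≠ _ ∧ (fun y : Q8 => y * y) ((fun y : Q8 => y * y) (el8 szp7 1).trace) ≠ _
  decide +kernel

theorem dvd13 (x : L8) (n : ℕ) (hx : orderOf x = 13 * n) : 13 * n ∣ 13 := by
  haveI : Fact (Nat.Prime 13) := ⟨by norm_num⟩
  refine dvd_of_centralizer (by rw [card_L8]; norm_num)
    (show orderOf (SemidirectProduct.inl u13 : L8) = 13 by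
      rw [orderOf_injective _ SemidirectProduct.inl_injective, order13])
    (cent_L (Or.inr rfl) order13 ?_) hx
  rw [mt13]
  show (fun y : Q8 => y * y) (el8 szp13 1).trace ≠ _ ∧ (fun y : Q8 => y * y) ((fun y : Q8 => y * y) (el8 szp13 1).trace) ≠ _
  decide +kernel

/-! ### The module -/

/-- Entrywise square. -/
def sqM : M8 →+* M8 := (Q8.frob : Q8 →+* Q8).mapMatrix

/-- Entrywise action of a field automorphism. -/
def mapM (σ : RingAut Q8) : M8 →+* M8 := (σ : Q8 →+* Q8).mapMatrix

theorem sqM_mapM (σ : RingAut Q8) (A : M8) : sqM (mapM σ A) = mapM σ (sqM A) := by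
  ext i j
  exact (map_mul σ (A i j) (A i j)).symm

theorem mapM_transpose (σ : RingAut Q8) (A : M8) : (mapM σ A)ᵀ = mapM σ Aᵀ := rfl

/-- The representation on matrices. -/
def rho : L8 →* AddMonoid.End M8 where
  toFun x :=
    { toFun := fun X => mt x.left * mapM x.right X * (sqM (mt x.left))ᵀ
      map_zero' := by simp
      map_add' := fun X Y => by simp [Matrix.mul_add, Matrix.add_mul] }
  map_one' := AddMonoidHom.ext fun X => by
    show mt 1 * mapM 1 X * (sqM (mt 1))ᵀ = X
    rw [show mt 1 = (1 : M8) from rfl, map_one, Matrix.transpose_one, Matrix.mul_one, Matrix.one_mul]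
    ext i j
    rfl
  map_mul' x y := AddMonoidHom.ext fun X => by
    show mt (x * y).left * mapM (x * y).right X * (sqM (mt (x * y).left))ᵀ =
      mt x.left * mapM x.right (mt y.left * mapM y.right X * (sqM (mt y.left))ᵀ) * (sqM (mt x.left))ᵀ
    rw [SemidirectProduct.mul_left, mt_mul]
    rw [show mt (((fieldHom hyp8).comp Tw.subtype) x.right y.left) = mapM x.right (mt y.left) from rfl,
      show mapM ((x * y).right : RingAut Q8) X = mapM x.right (mapM y.right X) from rfl, map_mul, map_mul,
      sqM_mapM, Matrix.transpose_mul, ← mapM_transpose]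
    simp only [map_mul, Matrix.mul_assoc]

theorem rho_mul_apply (a b : L8) (X : M8) : rho (a * b) X = rho a (rho b X) := by
  rw [map_mul]
  rfl

theorem rho_inl (g : G8) (X : M8) : rho (SemidirectProduct.inl g) X = mt g * X * (sqM (mt g))ᵀ := by
  show mt g * mapM 1 X * (sqM (mt g))ᵀ = _
  rw [show mapM 1 X = X from by ext i j; rfl]

theorem fpf13 {X : M8} (h : rho (SemidirectProduct.inl u13) X = X) : X = 0 := by
  rw [rho_inl, mt13] at h
  set A := el8 szp13 1 with hA
  have hC : (sqM A)ᵀ * conjC = 1 := by rw [hA]; decide +kernel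
  have h1 : A * X = X * conjC := by
    calc A * X = A * X * ((sqM A)ᵀ * conjC) := by rw [hC, Matrix.mul_one]
      _ = X * conjC := by rw [← Matrix.mul_assoc, h]
  have h2 : A * A * X = X * (conjC * conjC) := by rw [Matrix.mul_assoc, h1, ← Matrix.mul_assoc, h1, Matrix.mul_assoc]
  have h3 : A * A * A * X = X * (conjC * conjC * conjC) := by
    rw [Matrix.mul_assoc, h1, ← Matrix.mul_assoc, h2, Matrix.mul_assoc]
  have h4 : A * A * A * A * X = X * (conjC * conjC * conjC * conjC) := by
    rw [Matrix.mul_assoc, h1, ← Matrix.mul_assoc, h3, Matrix.mul_assoc]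
  have hzero : A * A * A * A + Q8.ofNat 7 • (A * A * A) + Q8.ofNat 5 • (A * A) + Q8.ofNat 7 • A + 1 = 0 := by
    rw [hA]; decide +kernel
  have hR : (conjC * conjC * conjC * conjC + Q8.ofNat 7 • (conjC * conjC * conjC) + Q8.ofNat 5 • (conjC * conjC)
      + Q8.ofNat 7 • conjC + 1) * invR = 1 := by decide +kernel
  have key : X * (conjC * conjC * conjC * conjC + Q8.ofNat 7 • (conjC * conjC * conjC) + Q8.ofNat 5 • (conjC * conjC)
      + Q8.ofNat 7 • conjC + 1) = 0 := by
    calc _ = (A * A * A * A + Q8.ofNat 7 • (A * A * A) + Q8.ofNat 5 • (A * A) + Q8.ofNat 7 • A + 1) * X := by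
          simp only [Matrix.add_mul, Matrix.smul_mul, h1, h2, h3, h4, Matrix.one_mul, Matrix.mul_add,
            Matrix.mul_smul, Matrix.mul_one]
      _ = 0 := by rw [hzero, Matrix.zero_mul]
  rw [← Matrix.mul_one X, ← hR, ← Matrix.mul_assoc, key, Matrix.zero_mul]

theorem fixed13 {x : L8} (hx : orderOf x = 13) {X : M8} (hX : rho x X = X) : X = 0 := by
  haveI : Fact (Nat.Prime 13) := ⟨by norm_num⟩
  obtain ⟨c, hc⟩ := exists_conj_zpowers (r := 13) (by rw [card_L8]; norm_num)
    (show orderOf (SemidirectProduct.inl u13 : L8) = 13 by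
      rw [orderOf_injective _ SemidirectProduct.inl_injective, order13]) hx
  obtain ⟨k, hk⟩ := ((isOfFinOrder_of_finite _).mem_powers_iff_mem_zpowers).2 hc
  have hg : rho (c * x * c⁻¹) (rho c X) = rho c X := by
    rw [← rho_mul_apply, inv_mul_cancel_right, rho_mul_apply, hX]
  have hpow : ∀ n : ℕ, rho ((c * x * c⁻¹) ^ n) (rho c X) = rho c X := by
    intro n
    induction n with
    | zero => rw [pow_zero, map_one]; rfl
    | succ n ih => rw [pow_succ, rho_mul_apply, hg, ih]
  have hp := hpow k
  simp only at hk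
  rw [hk] at hp
  have hz := fpf13 hp
  calc X = rho (c⁻¹ * c) X := by rw [inv_mul_cancel, map_one]; rfl
    _ = 0 := by rw [rho_mul_apply, hz, map_zero]

/-! ### The extensions -/

variable (N : ℕ)

/-- `N + 1` copies of the module extended by `Sz(8):3`. -/
abbrev Ext := Multiplicative (Fin (N + 1) → M8) ⋊[CfsgLib.PrimeGraph.piAut rho (N + 1)] L8

instance instFiniteExt : Finite (Ext N) :=
  haveI : Finite (Multiplicative (Fin (N + 1) → M8)) := Finite.of_equiv _ Multiplicative.ofAdd
  Finite.of_equiv _ SemidirectProduct.equivProd.symm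

theorem two_eq_zero8 : ∀ x : Q8, x + x = 0 := by decide +kernel

theorem sq_eq_one (w : Multiplicative (Fin (N + 1) → M8)) : w ^ 2 = 1 := by
  apply Multiplicative.toAdd.injective
  funext i
  ext a b
  rw [pow_two]
  exact two_eq_zero8 (w.toAdd i a b)

theorem pow_two_of_right {y : Ext N} (hy : y.right = 1) : y ^ 2 = 1 := by
  have e : y = SemidirectProduct.inl y.left := SemidirectProduct.ext rfl (by rw [hy]; rfl)
  rw [e, ← map_pow, sq_eq_one, map_one]

theorem right_pow {A B : Type*} [Group A] [Group B] {φ : B →* MulAut A} (x : A ⋊[φ] B) (n : ℕ) :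
    (x ^ n).right = x.right ^ n := map_pow SemidirectProduct.rightHom x n

theorem order_right (x : Ext N) : orderOf x.right ∣ orderOf x ∧ orderOf x ∣ orderOf x.right * 2 := by
  refine ⟨orderOf_map_dvd SemidirectProduct.rightHom x, orderOf_dvd_of_pow_eq_one ?_⟩
  rw [pow_mul]
  apply pow_two_of_right
  rw [right_pow, pow_orderOf_eq_one]

theorem odd_right (x : Ext N) (hodd : Odd (orderOf x)) : orderOf x.right = orderOf x :=
  Nat.dvd_antisymm (order_right N x).1
    ((Nat.Coprime.dvd_of_dvd_mul_right (Nat.coprime_two_right.2 hodd)) (order_right N x).2)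

theorem no13_ext (x : Ext N) (n : ℕ) (hx : orderOf x = 13 * n) : n = 1 := by
  obtain ⟨h1, h2⟩ := order_right N x
  rw [hx] at h1 h2
  have h13 : 13 ∣ orderOf x.right :=
    (Nat.Coprime.dvd_of_dvd_mul_right (by norm_num) ((dvd_mul_right 13 n).trans h2))
  obtain ⟨j, hj⟩ := h13
  have hj1 : j = 1 := by
    have := Nat.le_of_dvd (by norm_num) (dvd13 x.right j hj)
    have := orderOf_pos x.right
    omega
  rw [hj1, mul_one] at hj
  rw [hj] at h2
  have hn : n ∣ 2 := (Nat.mul_dvd_mul_iff_left (by norm_num : 0 < 13)).1 h2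
  rcases (Nat.dvd_prime Nat.prime_two).1 hn with h | rfl
  · exact h
  exfalso
  set y := x ^ 13 with hy
  have hyr : y.right = 1 := by
    rw [hy, right_pow, ← hj,
      pow_orderOf_eq_one]
  have hcomm : y * x = x * y := by rw [hy, ← pow_succ, ← pow_succ']
  have hl := congrArg SemidirectProduct.left hcomm
  rw [SemidirectProduct.mul_left, SemidirectProduct.mul_left, hyr, map_one, MulAut.one_apply,
    mul_comm y.left] at hl
  have hl' := (mul_left_cancel hl).symm
  have hy1 : y = 1 := by
    refine SemidirectProduct.ext ?_ hyr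
    apply Multiplicative.toAdd.injective
    funext i
    exact fixed13 hj (CfsgLib.PrimeGraph.piAut_fixed rho _ _ _ hl' i)
  have := orderOf_dvd_of_pow_eq_one hy1
  rw [hx] at this
  norm_num at this

theorem commute_inl_inr {n : Multiplicative (Fin (N + 1) → M8)} {g : L8}
    (h : CfsgLib.PrimeGraph.piAut rho (N + 1) g n = n) :
    Commute (SemidirectProduct.inl n : Ext N) (SemidirectProduct.inr g) := by
  refine SemidirectProduct.ext ?_ ?_
  · simp [h]
  · simp

theorem exists_two_mul {r : ℕ} (hr : Odd r) {g : G8} (hg : orderOf g = r) {X : M8} (hX : X ≠ 0)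
    (hfix : mt g * X * (sqM (mt g))ᵀ = X) : ∃ z : Ext N, orderOf z = 2 * r := by
  set w : Multiplicative (Fin (N + 1) → M8) := Multiplicative.ofAdd fun _ => X
  set b : Ext N := SemidirectProduct.inr (SemidirectProduct.inl g)
  have hb : orderOf b = r := by
    rw [orderOf_injective _ SemidirectProduct.inr_injective, orderOf_injective _ SemidirectProduct.inl_injective, hg]
  have ha : orderOf (SemidirectProduct.inl w : Ext N) = 2 := by
    haveI : Fact (Nat.Prime 2) := ⟨Nat.prime_two⟩
    refine orderOf_eq_prime (by rw [← map_pow, sq_eq_one, map_one]) fun h => hX ?_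
    have h1 : w = 1 := SemidirectProduct.inl_injective (h.trans (map_one _).symm)
    exact congrFun (congrArg Multiplicative.toAdd h1) 0
  refine ⟨SemidirectProduct.inl w * b, ?_⟩
  rw [(commute_inl_inr N (g := SemidirectProduct.inl g) (n := w) ?_).orderOf_mul_eq_mul_orderOf_of_coprime, ha, hb]
  · rw [ha, hb]; exact Nat.coprime_two_left.2 hr
  · exact Multiplicative.toAdd.injective (funext fun _ => (rho_inl g X).trans hfix)

theorem exists_three_mul {r : ℕ} (hr : Nat.Coprime r 3) {g : G8} (hg : orderOf g = r)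
    (hfix : fieldHom hyp8 Q8.frob g = g) : ∃ z : Ext N, orderOf z = r * 3 := by
  set s : Tw := ⟨Q8.frob, Subgroup.mem_zpowers _⟩
  have hs : orderOf (SemidirectProduct.inr s : L8) = 3 := by
    rw [orderOf_injective _ SemidirectProduct.inr_injective, ← Subgroup.orderOf_coe]
    exact orderOf_frob
  have hgi : orderOf (SemidirectProduct.inl g : L8) = r := by
    rw [orderOf_injective _ SemidirectProduct.inl_injective, hg]
  have hc : Commute (SemidirectProduct.inl g : L8) (SemidirectProduct.inr s) := by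
    refine SemidirectProduct.ext ?_ ?_
    · simp [s, hfix]
    · simp
  refine ⟨SemidirectProduct.inr (SemidirectProduct.inl g * SemidirectProduct.inr s), ?_⟩
  rw [orderOf_injective _ SemidirectProduct.inr_injective, hc.orderOf_mul_eq_mul_orderOf_of_coprime (by
    rw [hgi, hs]; exact hr), hgi, hs]

theorem card_ext : Nat.card (Ext N) = (2 ^ 48) ^ (N + 1) * 87360 := by
  rw [SemidirectProduct.card, Nat.card_congr (Multiplicative.toAdd), Nat.card_fun, Nat.card_fin, card_L8]
  congr 2
  rw [show Nat.card M8 = Nat.card (Fin 4 → Fin 4 → Q8) from rfl, Nat.card_fun, Nat.card_fun, Nat.card_fin,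
    Nat.card_eq_fintype_card, Q8.card_eq]
  norm_num

theorem lt_card_ext : N < Nat.card (Ext N) := by
  rw [card_ext]
  have h1 : N + 1 < (2 ^ 48) ^ (N + 1) := Nat.lt_pow_self (by norm_num)
  have h2 : (2 ^ 48) ^ (N + 1) ≤ (2 ^ 48) ^ (N + 1) * 87360 := Nat.le_mul_of_pos_right _ (by norm_num)
  omega

theorem facts_ext : Facts (Ext N) := by
  refine ⟨fun p hp => ?_, ?_, ?_, ?_, ?_, no13_ext N, fun g hg => ?_, fun g hg => ?_⟩
  · rw [card_ext, show (87360 : ℕ) = 2 ^ 6 * 3 * 5 * 7 * 13 by norm_num]
    constructor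
    · intro h
      rcases hp.dvd_mul.1 h with h | h
      · exact Or.inl ((Nat.prime_dvd_prime_iff_eq hp Nat.prime_two).1 (hp.dvd_of_dvd_pow (hp.dvd_of_dvd_pow h)))
      rcases hp.dvd_mul.1 h with h | h
      · rcases hp.dvd_mul.1 h with h | h
        · rcases hp.dvd_mul.1 h with h | h
          · rcases hp.dvd_mul.1 h with h | h
            · exact Or.inl ((Nat.prime_dvd_prime_iff_eq hp Nat.prime_two).1 (hp.dvd_of_dvd_pow h))
            · have := (Nat.prime_dvd_prime_iff_eq hp Nat.prime_three).1 h; omega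
          · have := (Nat.prime_dvd_prime_iff_eq hp (by norm_num : Nat.Prime 5)).1 h; omega
        · have := (Nat.prime_dvd_prime_iff_eq hp (by norm_num : Nat.Prime 7)).1 h; omega
      · have := (Nat.prime_dvd_prime_iff_eq hp (by norm_num : Nat.Prime 13)).1 h; omega
    · intro h
      apply dvd_mul_of_dvd_right
      rcases h with rfl | rfl | rfl | rfl | rfl <;> norm_num
  · refine exists_three_mul N (g := gW hyp8) (r := 2) (by norm_num) ?_ (Subtype.ext (fieldGL_W hyp8 Q8.frob))
    haveI : Fact (Nat.Prime 2) := ⟨Nat.prime_two⟩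
    exact orderOf_eq_prime (mt_inj (by decide +kernel)) fun h => absurd (congrArg mt h) (by decide +kernel)
  · refine exists_two_mul N (g := u5) (r := 5) (by decide) order5
      (X := ofNat4 ![![0, 0, 0, 1], ![0, 0, 1, 0], ![0, 1, 0, 0], ![1, 0, 0, 0]]) (by decide +kernel) ?_
    rw [mt5]; decide +kernel
  · refine exists_two_mul N (g := u7) (r := 7) (by decide) order7
      (X := ofNat4 ![![0, 1, 0, 0], ![0, 0, 0, 0], ![0, 0, 0, 0], ![0, 0, 0, 0]]) (by decide +kernel) ?_
    rw [mt7]; decide +kernel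
  · refine exists_three_mul N (g := u5) (r := 5) (by norm_num) order5 (mt_inj ?_)
    show sqM (mt u5) = mt u5
    rw [mt5]; decide +kernel
  · have h := odd_right N g (by rw [hg]; decide)
    rw [hg] at h
    have := dvd7 g.right 3 h
    norm_num at this
  · have h := odd_right N g (by rw [hg]; decide)
    rw [hg] at h
    have := dvd7 g.right 5 h
    norm_num at this

end CfsgLib.PspSixGraph
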