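import Mathlib

/-!
A computable field with eight elements.
-/

set_option autoImplicit false
set_option maxRecDepth 100000

namespace CfsgLib.PspSixGraph

/-- The elements, coded by their coordinates in the basis `1, α, α²`, `α³ = α + 1`. -/
structure Q8 where
  v : Fin 8
deriving DecidableEq

namespace Q8

/-- Addition table. -/
def addTab : List ℕ := [0, 1, 2, 3, 4, 5, 6, 7, 1, 0, 3, 2, 5, 4, 7, 6, 2, 3, 0, 1, 6, 7, 4, 5, 3, 2, 1, 0, 7, 6, 5, 4, 4, 5, 6, 7, 0, 1, 2, 3, 5, 4, 7, 6, 1, 0, 3, 2, 6, 7, 4, 5, 2, 3, 0, 1, 7, 6, 5, 4, 3, 2, 1, 0]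

/-- Multiplication table. -/
def mulTab : List ℕ := [0, 0, 0, 0, 0, 0, 0, 0, 0, 1, 2, 3, 4, 5, 6, 7, 0, 2, 4, 6, 3, 1, 7, 5, 0, 3, 6, 5, 7, 4, 1, 2, 0, 4, 3, 7, 6, 2, 5, 1, 0, 5, 1, 4, 2, 7, 3, 6, 0, 6, 7, 1, 5, 3, 2, 4, 0, 7, 5, 2, 1, 6, 4, 3]

/-- Inversion table. -/
def invTab : List ℕ := [0, 1, 5, 6, 7, 2, 3, 4]

/-- The element with given code. -/
def ofNat (n : ℕ) : Q8 := ⟨Fin.ofNat 8 n⟩

instance instFintypeQ8 : Fintype Q8 :=
  Fintype.ofEquiv (Fin 8) ⟨Q8.mk, Q8.v, fun _ => rfl, fun _ => rfl⟩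

instance instAddQ8 : Add Q8 := ⟨fun x y => ofNat (addTab.getD (8 * x.v.val + y.v.val) 0)⟩

instance instMulQ8 : Mul Q8 := ⟨fun x y => ofNat (mulTab.getD (8 * x.v.val + y.v.val) 0)⟩

instance instZeroQ8 : Zero Q8 := ⟨ofNat 0⟩

instance instOneQ8 : One Q8 := ⟨ofNat 1⟩

instance instNegQ8 : Neg Q8 := ⟨id⟩

instance instInvQ8 : Inv Q8 := ⟨fun x => ofNat (invTab.getD x.v.val 0)⟩

instance instFieldQ8 : Field Q8 where
  add_assoc := by decide +kernel
  zero_add := by decide +kernel
  add_zero := by decide +kernel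
  add_comm := by decide +kernel
  neg_add_cancel := by decide +kernel
  mul_assoc := by decide +kernel
  one_mul := by decide +kernel
  mul_one := by decide +kernel
  left_distrib := by decide +kernel
  right_distrib := by decide +kernel
  zero_mul := by decide +kernel
  mul_zero := by decide +kernel
  mul_comm := by decide +kernel
  exists_pair_ne := ⟨ofNat 0, ofNat 1, by decide⟩
  mul_inv_cancel := by decide +kernel
  inv_zero := rfl
  nsmul := nsmulRec
  nsmul_zero := fun _ => rfl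
  nsmul_succ := fun _ _ => rfl
  zsmul := zsmulRec
  zsmul_zero' := fun _ => rfl
  zsmul_succ' := fun _ _ => rfl
  zsmul_neg' := fun _ _ => rfl
  nnqsmul := _
  nnqsmul_def := fun _ _ => rfl
  qsmul := _
  qsmul_def := fun _ _ => rfl

theorem card_eq : Fintype.card Q8 = 8 := rfl

/-- The Frobenius automorphism. -/
def frob : RingAut Q8 where
  toFun x := x * x
  invFun x := x * x * (x * x)
  left_inv := by unfold Function.LeftInverse; decide +kernel
  right_inv := by unfold Function.RightInverse Function.LeftInverse; decide +kernel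
  map_mul' := by decide +kernel
  map_add' := by decide +kernel

end Q8

/-- The matrices. -/
abbrev M8 := Matrix (Fin 4) (Fin 4) Q8

/-- A matrix from its rows. -/
def ofNat4 (f : Fin 4 → Fin 4 → ℕ) : M8 := Matrix.of fun i j => Q8.ofNat (f i j)

/-- An entry of a list of powers. -/
def el8 (l : List M8) (i : ℕ) : M8 := l.getD i 1

/-- Successive powers, the `n`-th the first equal to one. -/
def szCert (l : List M8) (n : ℕ) : Bool :=
  decide (el8 l 0 = 1) && (List.range n).all (fun i => decide (el8 l (i + 1) = el8 l i * el8 l 1)) &&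
    decide (el8 l n = 1) && decide (el8 l 1 ≠ 1)

theorem szCert_pow {l : List M8} {n : ℕ} (h : szCert l n = true) {i : ℕ} (hi : i ≤ n) : el8 l 1 ^ i = el8 l i := by
  simp only [szCert, Bool.and_eq_true, decide_eq_true_eq, List.all_eq_true, List.mem_range] at h
  induction i with
  | zero => rw [pow_zero, h.1.1.1]
  | succ i ih => rw [pow_succ, ih (by omega), h.1.1.2 i (by omega)]

theorem szCert_last {l : List M8} {n : ℕ} (h : szCert l n = true) : el8 l 1 ^ n = 1 ∧ el8 l 1 ≠ 1 := by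
  have hp := szCert_pow h le_rfl
  simp only [szCert, Bool.and_eq_true, decide_eq_true_eq] at h
  exact ⟨hp.trans h.1.2, h.2⟩

end CfsgLib.PspSixGraph
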