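import Mathlib

/-!
A prime graph on `2, 3, 5, 7, 13` with edges `23, 25, 27, 35`, and a centraliser criterion for missing edges.
-/

set_option autoImplicit false

namespace CfsgLib.PspSixGraph

universe u v

/-- The prime graph wanted. -/
structure Facts (G : Type u) [Group G] : Prop where
  primes : ∀ p : ℕ, p.Prime → (p ∣ Nat.card G ↔ p = 2 ∨ p = 3 ∨ p = 5 ∨ p = 7 ∨ p = 13)
  e6 : ∃ g : G, orderOf g = 6
  e10 : ∃ g : G, orderOf g = 10
  e14 : ∃ g : G, orderOf g = 14
  e15 : ∃ g : G, orderOf g = 15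
  no13 : ∀ (g : G) (n : ℕ), orderOf g = 13 * n → n = 1
  no21 : ∀ g : G, orderOf g ≠ 21
  no35 : ∀ g : G, orderOf g ≠ 35

/-- The edge set. -/
def Edges : Finset ℕ := {6, 10, 14, 15}

theorem Facts.edge {G : Type u} [Group G] (hG : Facts G) {p q : ℕ} (hp : p.Prime) (hq : q.Prime) (hpq : p ≠ q) :
    (∃ g : G, orderOf g = p * q) ↔ p * q ∈ Edges := by
  refine ⟨?_, fun h => ?_⟩
  · rintro ⟨g, hg⟩
    have hp' := (hG.primes p hp).1 (Dvd.dvd.trans (dvd_mul_right p q) (hg ▸ orderOf_dvd_natCard g))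
    have hq' := (hG.primes q hq).1 (Dvd.dvd.trans (dvd_mul_left q p) (hg ▸ orderOf_dvd_natCard g))
    have a := fun n => hG.no13 g n
    have b := hG.no21 g
    have c := hG.no35 g
    rw [hg] at b c
    rcases hp' with rfl | rfl | rfl | rfl | rfl <;> rcases hq' with rfl | rfl | rfl | rfl | rfl <;>
      first
        | exact absurd rfl hpq
        | decide
        | exact absurd rfl b
        | exact absurd rfl c
        | exact absurd (a _ hg) (by norm_num)
        | exact absurd (a _ (hg.trans (Nat.mul_comm _ _))) (by norm_num)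
  · simp only [Edges, Finset.mem_insert, Finset.mem_singleton] at h
    rcases h with h | h | h | h <;> rw [h]
    exacts [hG.e6, hG.e10, hG.e14, hG.e15]

/-- Two groups with the graph. -/
theorem Facts.same {A : Type u} {B : Type v} [Group A] [Group B] (hA : Facts A) (hB : Facts B) :
    (∀ p : ℕ, p.Prime → (p ∣ Nat.card A ↔ p ∣ Nat.card B)) ∧
      ∀ p q : ℕ, p.Prime → q.Prime → p ≠ q →
        ((∃ g : A, orderOf g = p * q) ↔ ∃ g : B, orderOf g = p * q) :=
  ⟨fun p hp => (hA.primes p hp).trans (hB.primes p hp).symm,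
    fun _ _ hp hq hpq => (hA.edge hp hq hpq).trans (hB.edge hp hq hpq).symm⟩

/-- An element of order `r` is conjugate to a generator of any subgroup of order `r` if `r²` does not divide the order. -/
theorem exists_conj_zpowers {G : Type u} [Group G] [Finite G] {r : ℕ} [hr : Fact r.Prime] (h2 : ¬ r ^ 2 ∣ Nat.card G)
    {a b : G} (ha : orderOf a = r) (hb : orderOf b = r) : ∃ c : G, a ∈ Subgroup.zpowers (c * b * c⁻¹) := by
  have hfac : (Nat.card G).factorization r = 1 := by
    have h1 : r ∣ Nat.card G := ha ▸ orderOf_dvd_natCard a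
    have hpos := hr.out.factorization_pos_of_dvd Nat.card_pos.ne' h1
    have : (Nat.card G).factorization r < 2 := by
      by_contra hc
      exact h2 ((pow_dvd_pow r (by omega)).trans (Nat.ordProj_dvd _ _))
    omega
  have key : ∀ x : G, orderOf x = r → ∃ P : Sylow r G, (P : Subgroup G) = Subgroup.zpowers x := fun x hx =>
    ⟨Sylow.ofCard (Subgroup.zpowers x) (by rw [Nat.card_zpowers, hx, hfac, pow_one]), rfl⟩
  obtain ⟨P, hP⟩ := key a ha
  obtain ⟨Q, hQ⟩ := key b hb
  obtain ⟨c, hc⟩ := MulAction.exists_smul_eq G Q P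
  refine ⟨c, ?_⟩
  have h1 : a ∈ (c • Q : Sylow r G).toSubgroup := by rw [hc, hP]; exact Subgroup.mem_zpowers a
  rw [Sylow.coe_subgroup_smul, hQ] at h1
  obtain ⟨y, hy, rfl⟩ := h1
  obtain ⟨k, rfl⟩ := Subgroup.mem_zpowers_iff.1 hy
  refine Subgroup.mem_zpowers_iff.2 ⟨k, ?_⟩
  rw [conj_zpow]
  simp

/-- Missing edges from one centraliser. -/
theorem dvd_of_centralizer {G : Type u} [Group G] [Finite G] {r : ℕ} [hr : Fact r.Prime] (h2 : ¬ r ^ 2 ∣ Nat.card G)
    {a : G} (ha : orderOf a = r) {k : ℕ} (hC : ∀ y : G, y * a = a * y → y ^ k = 1) {x : G} {n : ℕ}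
    (hx : orderOf x = r * n) : r * n ∣ k := by
  have hn : n ≠ 0 := fun h => by
    rw [h, mul_zero] at hx
    exact (orderOf_pos x).ne' hx
  have hb : orderOf (x ^ n) = r := by
    rw [orderOf_pow' x hn, hx, Nat.gcd_mul_left_left, Nat.mul_div_cancel _ (Nat.pos_of_ne_zero hn)]
  obtain ⟨c, hc⟩ := exists_conj_zpowers h2 ha hb
  obtain ⟨j, hj⟩ := Subgroup.mem_zpowers_iff.1 hc
  have hcomm : Commute (c * x * c⁻¹) a := by
    rw [← hj, ← conj_pow]
    exact ((Commute.refl _).pow_right n).zpow_right j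
  have h := orderOf_dvd_of_pow_eq_one (hC _ hcomm.eq)
  rwa [← hx, show orderOf x = orderOf (MulAut.conj c x) from (MulEquiv.orderOf_eq _ x).symm]

end CfsgLib.PspSixGraph
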