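import Cfsg.Agent.PspSixGraph.SpData
import Cfsg.Agent.AutPSp.Unique

/-!
The prime graph of `PSp₆(3)`.
-/

set_option autoImplicit false
set_option maxRecDepth 100000

namespace CfsgLib.PspSixGraph

open Matrix

theorem card_psp : Nat.card (Cfsg.PSp 3 (ZMod 3)) = 4585351680 := by
  have h1 := Subgroup.card_eq_card_quotient_mul_card_subgroup (Subgroup.center Sp6)
  rw [CfsgLib.AutPSp.card_center_Sp (m := 3) (F := ZMod 3) (by norm_num), if_neg (by decide), CfsgLib.SpGeom.card_Sp] at h1
  simp only [Finset.prod_range_succ, Finset.prod_range_zero, ZMod.card] at h1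
  norm_num at h1
  show Nat.card (Sp6 ⧸ Subgroup.center Sp6) = _
  omega

theorem no_edges {l : List M} (hl : powCert l = true) {t k : ℕ} [Fact t.Prime] (hlen : l.length = t + 1)
    (ht : Odd t) (hlast : el l t = 1) {ys : Fin 14 → (I → ZMod 3)} {kin : Matrix (Fin 6) I (ZMod 3)}
    (hy : yCert (el l 1) ys kin t = true) (hc : cCert ys t = true)
    (h2k : (el l 1 ^ 27 = el l 1 ∧ k = 13) ∨ (el l 1 ^ 27 = el l 1 ^ (t - 1) ∧ k = 14))
    (hcard : ¬ t ^ 2 ∣ 4585351680) {x : Cfsg.PSp 3 (ZMod 3)} {n : ℕ} (hx : orderOf x = t * n) : t * n ∣ k := by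
  have h2 : 2 ≤ t := (Fact.out : t.Prime).two_le
  obtain ⟨X, hX, ho⟩ := exists_of_powCert hl hlen h2
  have hpow : el l 1 ^ t = 1 := by rw [powCert_pow hl (by omega), hlast]
  have hstar : star6 (el l 1) = el l 1 ^ (t - 1) := by
    have h1 := mul_star6 X
    rw [hX] at h1
    calc star6 (el l 1) = el l 1 ^ (t - 1) * el l 1 * star6 (el l 1) := by
          rw [← pow_succ, show t - 1 + 1 = t by omega, hpow, one_mul]
      _ = el l 1 ^ (t - 1) := by rw [mul_assoc, h1, mul_one]
  refine dvd_of_centralizer (r := t) (by rwa [card_psp]) ho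
    (proj_centralizer ht X (by rw [hX, hpow]) fun Y hY => ?_) hx
  rw [hX] at hY
  exact centralizer_pow hy hc (by omega) hpow hstar k h2k Y hY

theorem facts_psp_three : Facts (Cfsg.PSp 3 (ZMod 3)) := by
  haveI : Fact (Nat.Prime 13) := ⟨by norm_num⟩
  haveI : Fact (Nat.Prime 7) := ⟨by norm_num⟩
  have h13 : ∀ (x : Cfsg.PSp 3 (ZMod 3)) (n : ℕ), orderOf x = 13 * n → 13 * n ∣ 13 := fun x n hx => by
    have l13 : el pows13 13 = 1 := by decide +kernel
    refine no_edges cert13 (t := 13) rfl (by decide) l13 certY13 certC13 (Or.inl ⟨?_, rfl⟩) (by norm_num) hx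
    rw [show 27 = 13 * 2 + 1 from rfl, pow_succ, pow_mul, powCert_pow cert13 (by decide), l13, one_pow, one_mul]
  have h7 : ∀ (x : Cfsg.PSp 3 (ZMod 3)) (n : ℕ), orderOf x = 7 * n → 7 * n ∣ 14 := fun x n hx => by
    have l7 : el pows7 7 = 1 := by decide +kernel
    refine no_edges cert7 (t := 7) rfl (by decide) l7 certY7 certC7 (Or.inr ⟨?_, rfl⟩) (by norm_num) hx
    rw [show 27 = 7 * 3 + 6 from rfl, pow_add, pow_mul, powCert_pow cert7 (by decide) (i := 7), l7, one_pow, one_mul]
  refine ⟨fun p hp => ?_, ?_, ?_, ?_, ?_, fun g n hg => ?_, fun g hg => ?_, fun g hg => ?_⟩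
  · rw [card_psp, show (4585351680 : ℕ) = 2 ^ 9 * 3 ^ 9 * 5 * 7 * 13 by norm_num]
    constructor
    · intro h
      rcases hp.dvd_mul.1 h with h | h
      · rcases hp.dvd_mul.1 h with h | h
        · rcases hp.dvd_mul.1 h with h | h
          · rcases hp.dvd_mul.1 h with h | h
            · exact Or.inl ((Nat.prime_dvd_prime_iff_eq hp Nat.prime_two).1 (hp.dvd_of_dvd_pow h))
            · exact Or.inr (Or.inl ((Nat.prime_dvd_prime_iff_eq hp Nat.prime_three).1 (hp.dvd_of_dvd_pow h)))
          · have := (Nat.prime_dvd_prime_iff_eq hp (by norm_num : Nat.Prime 5)).1 h; omega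
        · have := (Nat.prime_dvd_prime_iff_eq hp (by norm_num : Nat.Prime 7)).1 h; omega
      · have := (Nat.prime_dvd_prime_iff_eq hp (by norm_num : Nat.Prime 13)).1 h; omega
    · rintro (rfl | rfl | rfl | rfl | rfl) <;> norm_num
  · obtain ⟨X, -, h⟩ := exists_of_powCert cert6 (n := 6) rfl (by norm_num)
    exact ⟨_, h⟩
  · obtain ⟨X, -, h⟩ := exists_of_powCert cert10 (n := 10) rfl (by norm_num)
    exact ⟨_, h⟩
  · obtain ⟨X, -, h⟩ := exists_of_powCert cert14 (n := 14) rfl (by norm_num)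
    exact ⟨_, h⟩
  · obtain ⟨X, -, h⟩ := exists_of_powCert cert15 (n := 15) rfl (by norm_num)
    exact ⟨_, h⟩
  · have h := Nat.le_of_dvd (by norm_num) (h13 g n hg)
    have := orderOf_pos g
    omega
  · have := h7 g 3 hg
    norm_num at this
  · have := h7 g 5 hg
    norm_num at this

theorem Facts.of_equiv {A B : Type*} [Group A] [Group B] (e : A ≃* B) (h : Facts B) : Facts A := by
  have ho : ∀ x : A, orderOf (e x) = orderOf x := fun x => MulEquiv.orderOf_eq e x
  have w : ∀ {n}, (∃ g : B, orderOf g = n) → ∃ g : A, orderOf g = n := fun ⟨g, hg⟩ =>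
    ⟨e.symm g, by rw [MulEquiv.orderOf_eq, hg]⟩
  exact ⟨fun p hp => by rw [Nat.card_congr e.toEquiv]; exact h.primes p hp, w h.e6, w h.e10, w h.e14, w h.e15,
    fun g n hg => h.no13 (e g) n (by rw [ho, hg]), fun g hg => h.no21 (e g) (by rw [ho, hg]),
    fun g hg => h.no35 (e g) (by rw [ho, hg])⟩

/-- Transport along a field isomorphism. -/
def spMap {F K : Type*} [Field F] [Field K] (f : F →+* K) :
    Matrix.symplecticGroup (Fin 3) F →* Matrix.symplecticGroup (Fin 3) K :=
  MonoidHom.mk' (fun A => ⟨f.mapMatrix A.1, SymplecticGroup.mem_iff.2 (by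
      have hJ : f.mapMatrix (Matrix.J (Fin 3) F) = Matrix.J (Fin 3) K := by
        ext i j
        rcases i with i | i <;> rcases j with j | j <;> simp [Matrix.J, Matrix.one_apply, apply_ite f]
      have h := congrArg f.mapMatrix (SymplecticGroup.mem_iff.1 A.2)
      rw [map_mul, map_mul, hJ] at h
      rw [show (f.mapMatrix A.1)ᵀ = f.mapMatrix (A.1ᵀ) from rfl]
      exact h)⟩)
    fun A B => Subtype.ext (map_mul f.mapMatrix A.1 B.1)

theorem spMap_comp {F K : Type*} [Field F] [Field K] (e : F ≃+* K) (A : Matrix.symplecticGroup (Fin 3) F) :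
    spMap e.symm.toRingHom (spMap e.toRingHom A) = A :=
  Subtype.ext (Matrix.ext fun _ _ => e.symm_apply_apply _)

/-- The isomorphism of symplectic groups. -/
def spEquiv {F K : Type*} [Field F] [Field K] (e : F ≃+* K) :
    Matrix.symplecticGroup (Fin 3) F ≃* Matrix.symplecticGroup (Fin 3) K :=
  { spMap e.toRingHom with
    invFun := spMap e.symm.toRingHom
    left_inv := spMap_comp e
    right_inv := spMap_comp e.symm }

theorem facts_psp {F : Type*} [Field F] [Fintype F] (hF : Fintype.card F = 3) : Facts (Cfsg.PSp 3 F) := by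
  let e := spEquiv (ZMod.ringEquivOfPrime F Nat.prime_three hF).symm
  refine Facts.of_equiv (QuotientGroup.congr _ (Subgroup.center Sp6) e ?_) facts_psp_three
  ext y
  simp only [Subgroup.mem_map, Subgroup.mem_center_iff]
  constructor
  · rintro ⟨x, hx, rfl⟩ z
    obtain ⟨w, rfl⟩ := e.surjective z
    show e w * e x = e x * e w
    rw [← map_mul, ← map_mul, hx w]
  · intro hy
    refine ⟨e.symm y, fun w => e.injective ?_, e.apply_symm_apply y⟩
    rw [map_mul, map_mul, e.apply_symm_apply]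
    exact hy (e w)

end CfsgLib.PspSixGraph
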