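import Cfsg.Agent.PspSixGraph.Graph
import Cfsg.Agent.SpGeom.Order
import Cfsg.Agent.SpGeom.Simple
import Cfsg.Prelude.Def_Classical

/-!
Centralisers of semisimple elements of `Sp₆(3)` from a cyclic vector.
-/

set_option autoImplicit false

namespace CfsgLib.PspSixGraph

open Matrix Polynomial

/-- The index set. -/
abbrev I := Fin 3 ⊕ Fin 3

/-- The matrices. -/
abbrev M := Matrix I I (ZMod 3)

/-- The symplectic group. -/
abbrev Sp6 := Matrix.symplecticGroup (Fin 3) (ZMod 3)

/-- Position of a coordinate. -/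
def ix : I → Fin 6
  | .inl i => ⟨i.1, by omega⟩
  | .inr i => ⟨i.1 + 3, by omega⟩

/-- A matrix from its rows. -/
def ofFun (f : Fin 6 → Fin 6 → ZMod 3) : M := Matrix.of fun i j => f (ix i) (ix j)

/-- A vector from its entries. -/
def ofVec (f : Fin 6 → ZMod 3) : I → ZMod 3 := fun i => f (ix i)

/-- An entry of a list of powers. -/
def el (l : List M) (i : ℕ) : M := l.getD i 1

/-- Successive powers of a symplectic matrix, the last one central and no other. -/
def powCert (l : List M) : Bool :=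
  decide (el l 1 * Matrix.J (Fin 3) (ZMod 3) * (el l 1)ᵀ = Matrix.J (Fin 3) (ZMod 3)) && decide (el l 0 = 1) &&
    (List.range (l.length - 1)).all (fun i => decide (el l (i + 1) = el l i * el l 1)) &&
    decide (el l (l.length - 1) = 1 ∨ el l (l.length - 1) = -1) &&
    (List.range (l.length - 2)).all (fun i => decide (el l (i + 1) ≠ 1 ∧ el l (i + 1) ≠ -1))

theorem powCert_pow {l : List M} (h : powCert l = true) {i : ℕ} (hi : i < l.length) : el l 1 ^ i = el l i := by
  simp only [powCert, Bool.and_eq_true, decide_eq_true_eq, List.all_eq_true, List.mem_range] at h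
  induction i with
  | zero => rw [pow_zero, h.1.1.1.2]
  | succ i ih => rw [pow_succ, ih (by omega), h.1.1.2 i (by omega)]

theorem proj_eq_one_iff (X : Sp6) :
    (QuotientGroup.mk X : Cfsg.PSp 3 (ZMod 3)) = 1 ↔ (X : M) = 1 ∨ (X : M) = -1 := by
  rw [QuotientGroup.eq_one_iff, CfsgLib.Symp.mem_center_iff (by norm_num)]

theorem exists_of_powCert {l : List M} (h : powCert l = true) {n : ℕ} (hn : l.length = n + 1) (h2 : 2 ≤ n) :
    ∃ X : Sp6, (X : M) = el l 1 ∧ orderOf (QuotientGroup.mk X : Cfsg.PSp 3 (ZMod 3)) = n := by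
  have hp := fun i hi => powCert_pow h (i := i) hi
  simp only [powCert, Bool.and_eq_true, decide_eq_true_eq, List.all_eq_true, List.mem_range] at h
  refine ⟨⟨el l 1, SymplecticGroup.mem_iff.2 h.1.1.1.1⟩, rfl, (orderOf_eq_iff (by omega)).2 ⟨?_, fun m hm h0 e => ?_⟩⟩
  · rw [← QuotientGroup.mk_pow, proj_eq_one_iff, SubmonoidClass.coe_pow, hp n (by omega)]
    simpa [hn] using h.1.2
  · rw [← QuotientGroup.mk_pow, proj_eq_one_iff, SubmonoidClass.coe_pow, hp m (by omega)] at e
    obtain ⟨m, rfl⟩ : ∃ k, m = k + 1 := ⟨m - 1, by omega⟩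
    have := h.2 m (by omega)
    tauto

/-! ### The adjoint -/

/-- The adjoint for the alternating form. -/
def star6 (A : M) : M := Matrix.J (Fin 3) (ZMod 3) * Aᵀ * (-Matrix.J (Fin 3) (ZMod 3))

theorem J_mul_neg : Matrix.J (Fin 3) (ZMod 3) * (-Matrix.J (Fin 3) (ZMod 3)) = 1 := by
  rw [mul_neg, Matrix.J_squared, neg_neg]

theorem neg_J_mul : (-Matrix.J (Fin 3) (ZMod 3)) * Matrix.J (Fin 3) (ZMod 3) = 1 := by
  rw [neg_mul, Matrix.J_squared, neg_neg]

theorem star6_mul (A B : M) : star6 (A * B) = star6 B * star6 A := by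
  calc star6 (A * B) = Matrix.J (Fin 3) (ZMod 3) * Bᵀ * 1 * Aᵀ * (-Matrix.J (Fin 3) (ZMod 3)) := by
        simp [star6, Matrix.transpose_mul, Matrix.mul_assoc]
    _ = star6 B * star6 A := by rw [← neg_J_mul]; simp only [star6, Matrix.mul_assoc]

theorem star6_one : star6 1 = 1 := by rw [star6, Matrix.transpose_one, mul_one, J_mul_neg]

theorem star6_pow (A : M) (n : ℕ) : star6 (A ^ n) = star6 A ^ n := by
  induction n with
  | zero => simp [star6_one]
  | succ n ih => rw [pow_succ, star6_mul, ih, pow_succ']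

theorem mul_star6 (X : Sp6) : (X : M) * star6 (X : M) = 1 := by
  have h := SymplecticGroup.mem_iff.1 X.2
  rw [star6, ← Matrix.mul_assoc, ← Matrix.mul_assoc, h, J_mul_neg]

/-! ### The commutant of a matrix with a cyclic vector -/

/-- The polynomial with given coefficients. -/
noncomputable def poly (c : Fin 6 → ZMod 3) : (ZMod 3)[X] := ∑ i : Fin 6, C (c i) * X ^ (i : ℕ)

theorem aeval_poly (c : Fin 6 → ZMod 3) (U : M) : aeval U (poly c) = ∑ i : Fin 6, c i • U ^ (i : ℕ) := by
  simp [poly, map_sum, Algebra.smul_def]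

theorem star6_poly (c : Fin 6 → ZMod 3) (U : M) : star6 (aeval U (poly c)) = aeval (star6 U) (poly c) := by
  rw [aeval_poly, aeval_poly, star6, Matrix.transpose_sum, Finset.mul_sum, Finset.sum_mul]
  refine Finset.sum_congr rfl fun i _ => ?_
  rw [← star6_pow, Matrix.transpose_smul, Matrix.mul_smul, Matrix.smul_mul, star6]

theorem aeval_pow_three (p : (ZMod 3)[X]) (U : M) : aeval U p ^ 3 = aeval (U ^ 3) p := by
  rw [← map_pow, ← ZMod.expand_card, expand_aeval]

theorem aeval_pow_27 (p : (ZMod 3)[X]) (U : M) : aeval U p ^ 27 = aeval (U ^ 27) p := by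
  rw [show 27 = 3 * 3 * 3 from rfl, pow_mul, pow_mul, pow_mul, pow_mul, aeval_pow_three, aeval_pow_three,
    aeval_pow_three]

/-- The orbit of a cyclic vector and an inverse of the basis it gives. -/
def yCert (U : M) (ys : Fin 14 → (I → ZMod 3)) (kin : Matrix (Fin 6) I (ZMod 3)) (t : ℕ) : Bool :=
  decide (∀ k : Fin 13, ys k.succ = U *ᵥ ys k.castSucc) &&
    decide ((Matrix.of fun (i : I) (r : Fin 6) => ys (Fin.castLE (by norm_num) r) i) * kin = 1) &&
    decide (t ≤ 13)

/-- The only self-adjoint square roots of one in the commutant are `±1`. -/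
def cCert (ys : Fin 14 → (I → ZMod 3)) (t : ℕ) : Bool :=
  decide (∀ a b c d e f : ZMod 3,
    (∀ x : I, (∑ i : Fin 6, ![a, b, c, d, e, f] i *
      (ys (Fin.ofNat 14 ((t - 1) * (i : ℕ) % t)) x - ys (Fin.castLE (by norm_num) i) x)) = 0) →
    (∀ x : I, (∑ i : Fin 6, ∑ j : Fin 6, ![a, b, c, d, e, f] i * ![a, b, c, d, e, f] j *
      ys ⟨(i : ℕ) + (j : ℕ), by omega⟩ x) = ys 0 x) →
    (a = 1 ∨ a = 2) ∧ b = 0 ∧ c = 0 ∧ d = 0 ∧ e = 0 ∧ f = 0)

variable {U : M} {ys : Fin 14 → (I → ZMod 3)} {kin : Matrix (Fin 6) I (ZMod 3)} {t : ℕ}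

theorem ys_eq (h : yCert U ys kin t = true) (k : Fin 14) : ys k = U ^ (k : ℕ) *ᵥ ys 0 := by
  simp only [yCert, Bool.and_eq_true, decide_eq_true_eq] at h
  induction k using Fin.induction with
  | zero => simp
  | succ k ih => rw [h.1.1 k, ih, Matrix.mulVec_mulVec, Fin.val_succ, pow_succ']; rfl

theorem exists_poly (h : yCert U ys kin t = true) {A : M} (hA : A * U = U * A) :
    ∃ c : Fin 6 → ZMod 3, A = aeval U (poly c) := by
  have hy := ys_eq h
  simp only [yCert, Bool.and_eq_true, decide_eq_true_eq] at h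
  set K : Matrix I (Fin 6) (ZMod 3) := Matrix.of fun i r => ys (Fin.castLE (by norm_num) r) i with hK
  have hKr : ∀ r : Fin 6, ys (Fin.castLE (by norm_num) r) = U ^ (r : ℕ) *ᵥ ys 0 := fun r => by
    rw [hy, Fin.val_castLE]
  refine ⟨kin *ᵥ (A *ᵥ ys 0), ?_⟩
  set c := kin *ᵥ (A *ᵥ ys 0) with hc
  have hKc : aeval U (poly c) *ᵥ ys 0 = A *ᵥ ys 0 := by
    calc aeval U (poly c) *ᵥ ys 0 = K *ᵥ c := by
          funext x
          rw [aeval_poly, Matrix.sum_mulVec, Finset.sum_apply]
          simp only [Matrix.smul_mulVec, Pi.smul_apply, smul_eq_mul]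
          simp only [← hKr]
          simp only [Matrix.mulVec, dotProduct, hK, Matrix.of_apply]
          exact Finset.sum_congr rfl fun i _ => mul_comm _ _
      _ = A *ᵥ ys 0 := by rw [hc, Matrix.mulVec_mulVec, h.1.2, Matrix.one_mulVec]
  have hcomm : Commute (aeval U (poly c)) U := by
    have := (Polynomial.commute_X (poly c)).map (aeval U : (ZMod 3)[X] →ₐ[ZMod 3] M)
    rw [aeval_X] at this
    exact this.symm
  have hAK : A * K = aeval U (poly c) * K := by
    ext x r
    have e : ∀ B : M, Commute B U → (B * K) x r = (U ^ (r : ℕ) *ᵥ (B *ᵥ ys 0)) x := by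
      intro B hB
      rw [Matrix.mulVec_mulVec, ← (hB.pow_right _).eq, ← Matrix.mulVec_mulVec]
      rw [← hKr]
      simp only [Matrix.mul_apply, hK, Matrix.of_apply, Matrix.mulVec, dotProduct]
    rw [e A hA, e _ hcomm, hKc]
  have := congrArg (· * kin) hAK
  simpa [Matrix.mul_assoc, h.1.2] using this

theorem square_root (h : yCert U ys kin t = true) (hc : cCert ys t = true) (ht : 1 ≤ t) (hU : U ^ t = 1)
    (hstar : star6 U = U ^ (t - 1)) {S : M} (hS : S * U = U * S) (hSs : S * S = 1) (hsa : star6 S = S) :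
    S = 1 ∨ S = -1 := by
  obtain ⟨c, rfl⟩ := exists_poly h hS
  have hy := ys_eq h
  have ht13 : t ≤ 13 := by simp only [yCert, Bool.and_eq_true, decide_eq_true_eq] at h; exact h.2
  simp only [cCert, decide_eq_true_eq] at hc
  have hc6 : ![c 0, c 1, c 2, c 3, c 4, c 5] = c := by funext i; fin_cases i <;> rfl
  have key := hc (c 0) (c 1) (c 2) (c 3) (c 4) (c 5)
  rw [hc6] at key
  have hpow : ∀ i : Fin 6, (U ^ (t - 1)) ^ (i : ℕ) = U ^ ((t - 1) * (i : ℕ) % t) := by
    intro i
    rw [← pow_mul]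
    exact pow_eq_pow_mod _ hU
  obtain ⟨ha, hb, hc', hd, he, hf⟩ := key (by
    intro x
    rw [star6_poly, hstar] at hsa
    have e := congrFun (congrArg (· *ᵥ ys 0) (sub_eq_zero.2 hsa)) x
    simp only [aeval_poly, ← Finset.sum_sub_distrib, hpow, Matrix.zero_mulVec,
      Matrix.sum_mulVec, Finset.sum_apply, Matrix.sub_mulVec, Matrix.smul_mulVec, Pi.sub_apply,
      Pi.smul_apply, Pi.zero_apply, smul_eq_mul] at e
    rw [← e]
    simp only [mul_sub, Finset.sum_sub_distrib]
    refine congrArg₂ HSub.hSub (Finset.sum_congr rfl fun i _ => ?_) (Finset.sum_congr rfl fun i _ => ?_)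

    · have hlt : (t - 1) * (i : ℕ) % t < 14 := lt_of_lt_of_le (Nat.mod_lt _ (by omega)) (by omega)
      rw [hy (Fin.ofNat 14 _), Fin.val_ofNat, Nat.mod_eq_of_lt hlt]
    · rw [hy (Fin.castLE _ i), Fin.val_castLE]
    ) (by
    intro x
    have e := congrFun (congrArg (· *ᵥ ys 0) hSs) x
    simp only [aeval_poly, Finset.sum_mul, Finset.mul_sum, Matrix.smul_mul, Matrix.mul_smul, ← pow_add,
      smul_smul, Matrix.sum_mulVec, Matrix.smul_mulVec, Finset.sum_apply, Pi.smul_apply, smul_eq_mul,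
      Matrix.one_mulVec] at e
    conv_rhs => rw [← e]
    refine Finset.sum_congr rfl fun i _ => Finset.sum_congr rfl fun j _ => ?_
    rw [hy ⟨(i : ℕ) + (j : ℕ), _⟩, add_comm (j : ℕ) (i : ℕ)]
    )
  have e : aeval U (poly c) = c 0 • (1 : M) := by
    rw [aeval_poly, Fin.sum_univ_six]
    simp [hb, hc', hd, he, hf]
  rw [e]
  rcases ha with ha | ha <;> rw [ha]
  · exact Or.inl (one_smul _ _)
  · right
    rw [show (2 : ZMod 3) = -1 by decide, neg_one_smul]

/-- The centraliser in `Sp₆(3)`. -/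
theorem centralizer_pow (h : yCert U ys kin t = true) (hc : cCert ys t = true) (ht : 1 ≤ t) (hU : U ^ t = 1)
    (hstar : star6 U = U ^ (t - 1)) (k : ℕ) (h2k : (U ^ 27 = U ∧ k = 13) ∨ (U ^ 27 = U ^ (t - 1) ∧ k = 14))
    (X : Sp6) (hX : (X : M) * U = U * (X : M)) : (X : M) ^ k = 1 ∨ (X : M) ^ k = -1 := by
  obtain ⟨c, hcX⟩ := exists_poly h hX
  have h1 : (X : M) ^ (k + k) = 1 := by
    rcases h2k with ⟨e, rfl⟩ | ⟨e, rfl⟩
    · have e27 : (X : M) ^ 27 = X := by rw [hcX, aeval_pow_27, e]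
      calc (X : M) ^ (13 + 13) = (X : M) ^ 26 * ((X : M) * star6 (X : M)) := by rw [mul_star6, mul_one]
        _ = (X : M) ^ 27 * star6 (X : M) := by rw [← mul_assoc, ← pow_succ]
        _ = 1 := by rw [e27, mul_star6]
    · have e27 : (X : M) ^ 27 = star6 (X : M) := by
        rw [hcX, aeval_pow_27, e, star6_poly, hstar]
      calc (X : M) ^ (14 + 14) = (X : M) * (X : M) ^ 27 := by rw [← pow_succ']
        _ = 1 := by rw [e27, mul_star6]
  refine square_root h hc ht hU hstar (Commute.pow_left (show Commute (X : M) U from hX) k).eq (by rw [← pow_add, h1]) ?_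
  have e := mul_star6 (X ^ k)
  rw [SubmonoidClass.coe_pow] at e
  calc star6 ((X : M) ^ k) = (X : M) ^ k * (X : M) ^ k * star6 ((X : M) ^ k) := by rw [← pow_add, h1, one_mul]
    _ = (X : M) ^ k := by rw [mul_assoc, e, mul_one]

theorem proj_centralizer {k : ℕ} (ht : Odd t) (U : Sp6) (hU : (U : M) ^ t = 1)
    (hC : ∀ X : Sp6, (X : M) * (U : M) = (U : M) * (X : M) → (X : M) ^ k = 1 ∨ (X : M) ^ k = -1)
    (y : Cfsg.PSp 3 (ZMod 3)) (hy : y * QuotientGroup.mk U = QuotientGroup.mk U * y) : y ^ k = 1 := by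
  obtain ⟨X, rfl⟩ := QuotientGroup.mk_surjective y
  rw [← QuotientGroup.mk_pow, proj_eq_one_iff, SubmonoidClass.coe_pow]
  apply hC
  have e : (QuotientGroup.mk (X * U * X⁻¹ * U⁻¹) : Cfsg.PSp 3 (ZMod 3)) = 1 := by
    simp only [QuotientGroup.mk_mul, QuotientGroup.mk_inv]
    rw [hy]; group
  set Z := X * U * X⁻¹ * U⁻¹ with hZ
  have hXU : X * U = Z * U * X := by rw [hZ]; group
  have hm := congrArg (fun A : Sp6 => (A : M)) hXU
  simp only [Submonoid.coe_mul] at hm
  rcases (proj_eq_one_iff Z).1 e with h | h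
  · rwa [h, one_mul] at hm
  · exfalso
    rw [h, neg_one_mul, Matrix.neg_mul] at hm
    have hconj : SemiconjBy (X : M) (U : M) (-(U : M)) := by rw [SemiconjBy, Matrix.neg_mul]; exact hm
    have := hconj.pow_right t
    rw [ht.neg_pow, hU, SemiconjBy, mul_one] at this
    have h3 : (1 : M) = -1 := by
      have := congrArg (· * star6 (X : M)) this
      simpa [mul_star6, Matrix.mul_assoc] using this
    exact absurd (congrFun (congrFun h3 (.inl 0)) (.inl 0)) (by decide)

end CfsgLib.PspSixGraph
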